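import Mathlib
import Cfsg.Agent.ZP.Base
import Cfsg.Agent.Block.PPart

/-!
# In a minimal counterexample to `Z*_p` at most `|G| / p` elements are `p`-regular
-/

set_option autoImplicit false

namespace Cfsg.Agent.ZP

open Cfsg Subgroup Cfsg.Agent.PLocal Cfsg.Agent.PLocal.Amb Cfsg.Agent.Block

variable {G : Type*} [Group G] [Finite G] {p : ℕ} [hp : Fact p.Prime] {x : G}

omit hp in
theorem zmin_conj (h : ZMin p x) (g : G) : ZMin p (g * x * g⁻¹) := by
  refine ⟨by rw [orderOf_conj', h.ord], iso_conj h.iso g, fun e => h.nz ?_, fun H hH hH' => ?_,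
    fun N _ hN => ?_⟩
  · simpa [mul_assoc] using InZStar.map' e (MulAut.conj g⁻¹).toMonoidHom (MulAut.conj g⁻¹).surjective
  · have hx : x ∈ H.comap (MulAut.conj g).toMonoidHom := hH
    have := h.sub _ hx fun e => hH' (comap_injective (f := (MulAut.conj g).toMonoidHom)
      (MulAut.conj g).surjective e)
    exact InZStar.map' this ((MulAut.conj g).toMonoidHom.subgroupComap H)
      (MonoidHom.subgroupComap_surjective_of_surjective _ _ (MulAut.conj g).surjective)
  · exact InZStar.map' (h.quot N hN) (MulAut.conj (QuotientGroup.mk g : G ⧸ N)).toMonoidHom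
      (MulAut.conj _).surjective

theorem exists_core_conj (h : ZMin p x) {Y : Subgroup G} (hY : Y ≠ ⊤) (hx : x ∈ Y) {g : G}
    (hg : g * x * g⁻¹ ∈ Y) :
    ∃ k ∈ (pPrimeCore p Y).map Y.subtype, g * x * g⁻¹ = k * x * k⁻¹ := by
  set O := (pPrimeCore p Y).map Y.subtype
  obtain ⟨c, hc, hc'⟩ := iso_exists_conj_mem h.iso h.pow hx hg
  have e : ∀ {c : G}, c * g ∈ centralizer ({x} : Set G) → g * x * g⁻¹ = c⁻¹ * x * c := fun {c} hc => by
    conv_rhs => rw [← mem_cent1.1 hc]
    group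
  have h1 := (inZStar_subgroup_iff hx).1 (h.sub _ hx hY) c⁻¹ (inv_mem hc)
  rw [inv_inv, ← e hc'] at h1
  obtain ⟨d, hd, hd'⟩ := iso_exists_conj_mem h.iso h.pow (L := zpowers x ⊔ O)
    (mem_sup_left (mem_zpowers x)) (g := g)
    (by simpa using mul_mem (mem_sup_right h1) (mem_sup_left (mem_zpowers x)))
  obtain ⟨_, ⟨i, rfl⟩, o, ho, rfl⟩ := (mem_sup_of_le_normalizer_right
    (zpowers_le.2 (le_normalizer_map_subtype _ hx))).1 hd
  exact ⟨o⁻¹, inv_mem ho, by rw [e hd']; group⟩

omit hp in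
theorem not_dvd_mul {O : Subgroup G} (hO : (Nat.card O).Coprime p) [Fact p.Prime] {u o : G}
    (hu : ¬ p ∣ orderOf u) (hn : u ∈ 𝐍[O]) (ho : o ∈ O) : ¬ p ∣ orderOf (u * o) := by
  have h1 : ∀ k : ℕ, ∃ o' ∈ O, (u * o) ^ k = u ^ k * o' := fun k => by
    induction k with
    | zero => exact ⟨1, one_mem _, by simp⟩
    | succ k ih =>
      obtain ⟨o', ho', e⟩ := ih
      exact ⟨u⁻¹ * o' * u * o, mul_mem (by
        simpa using (mem_normalizer_iff.1 (inv_mem hn) o').1 ho') ho, by rw [pow_succ, e]; group⟩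
  obtain ⟨o', ho', e⟩ := h1 (orderOf u)
  rw [pow_orderOf_eq_one, one_mul] at e
  have h2 : orderOf (u * o) ∣ orderOf u * Nat.card O := orderOf_dvd_of_pow_eq_one (by
    rw [pow_mul, e]; exact congrArg Subtype.val (pow_card_eq_one' (x := (⟨o', ho'⟩ : O))))
  exact fun hd => ((Fact.out : p.Prime).dvd_mul.1 (hd.trans h2)).elim hu
    ((Nat.Prime.coprime_iff_not_dvd Fact.out).1 hO.symm)

omit hp in
theorem sum_le_of_coset (O : Subgroup G) [Fintype O] (T : Finset G) (f : G → ℕ) (c : ℕ)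
    (hT : ∀ g ∈ T, ∀ o ∈ O, g * o ∈ T) (hf : ∀ g ∈ T, ∑ o : O, f (g * o) ≤ c * Nat.card O) :
    ∑ g ∈ T, f g ≤ c * T.card := by
  have h1 : ∀ o : O, ∑ g ∈ T, f (g * o) = ∑ g ∈ T, f g := fun o =>
    Finset.sum_nbij' (· * (o : G)) (· * (o : G)⁻¹) (fun g hg => hT g hg o o.2)
      (fun g hg => hT g hg _ (inv_mem o.2)) (by simp) (by simp) (by simp)
  have h2 := Finset.sum_le_sum hf
  rw [Finset.sum_comm, Finset.sum_congr rfl fun o _ => h1 o] at h2
  simp only [Finset.sum_const, smul_eq_mul, Finset.card_univ, ← Nat.card_eq_fintype_card] at h2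
  exact Nat.le_of_mul_le_mul_left (h2.trans_eq (by ring)) (Nat.card_pos (α := O))

theorem card_pairs_le (h : ZMin p x) {z g : G} (hz : z ≠ 1) {O : Subgroup G}
    (hO : O = (pPrimeCore p (centralizer ({z} : Set G))).map (centralizer ({z} : Set G)).subtype)
    (hg : ∀ o ∈ O, pPart p (g * o) = z) :
    Nat.card {v : O × G // Commute (v.2 * x * v.2⁻¹) (g * v.1)} ≤
      Nat.card (centralizer ({x} : Set G)) * Nat.card O := by
  classical
  rcases isEmpty_or_nonempty {v : O × G // Commute (v.2 * x * v.2⁻¹) (g * v.1)} with h0 | ⟨⟨v₀⟩⟩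
  · simp
  have hY : centralizer ({z} : Set G) ≠ ⊤ := fun e => hz (by
    rw [← mem_bot, ← h.center_eq_bot]
    exact Subgroup.mem_center_iff.2 fun y =>
      mem_centralizer_singleton_iff.1 (e ▸ mem_top y : y ∈ centralizer ({z} : Set G)))
  have hm : ∀ v : {v : O × G // Commute (v.2 * x * v.2⁻¹) (g * v.1)},
      v.1.2 * x * v.1.2⁻¹ ∈ centralizer ({z} : Set G) := fun v =>
    mem_centralizer_singleton_iff.2 (hg _ v.1.1.2 ▸ commute_pPart (p := p) v.2)
  set a₀ := v₀.1.2 * x * v₀.1.2⁻¹ with ha₀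
  have key : ∀ a : G, ∃ (k o : O) (s : G), ∀ v : {v : O × G // Commute (v.2 * x * v.2⁻¹) (g * v.1)},
      v.1.2 * x * v.1.2⁻¹ = a → a = k * a₀ * (k : G)⁻¹ ∧ Commute a (g * o) ∧ s * x * s⁻¹ = a := by
    intro a
    by_cases ha : ∃ v : {v : O × G // Commute (v.2 * x * v.2⁻¹) (g * v.1)}, v.1.2 * x * v.1.2⁻¹ = a
    · obtain ⟨v, rfl⟩ := ha
      obtain ⟨k, hk, e⟩ := exists_core_conj (zmin_conj h v₀.1.2) hY (hm v₀) (g := v.1.2 * v₀.1.2⁻¹)
        (by simpa [mul_assoc] using hm v)
      exact ⟨⟨k, hO ▸ hk⟩, v.1.1, v.1.2, fun _ _ => ⟨by rw [← e]; group, v.2, rfl⟩⟩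
    · exact ⟨1, 1, 1, fun v hv => absurd ⟨v, hv⟩ ha⟩
  choose k o s hs using key
  let f : {v : O × G // Commute (v.2 * x * v.2⁻¹) (g * v.1)} → centralizer ({x} : Set G) × O :=
    fun v => (⟨(s (v.1.2 * x * v.1.2⁻¹))⁻¹ * v.1.2, mem_cent1.2 (by
      have := (hs _ v rfl).2.2
      generalize s (v.1.2 * x * v.1.2⁻¹) = t at this
      calc t⁻¹ * v.1.2 * x * (t⁻¹ * v.1.2)⁻¹ = t⁻¹ * (v.1.2 * x * v.1.2⁻¹) * t := by group
        _ = x := by rw [← this]; group)⟩,
      (o (v.1.2 * x * v.1.2⁻¹))⁻¹ * v.1.1 * k (v.1.2 * x * v.1.2⁻¹))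
  have hf : ∀ v, v.1.2 * x * v.1.2⁻¹ = (f v).2 * a₀ * ((f v).2 : G)⁻¹ := fun v => by
    obtain ⟨h1, h2, -⟩ := hs _ v rfl
    have h3 := h2.inv_right.mul_right v.2
    simp only [f, coe_mul, coe_inv]
    generalize v.1.2 * x * v.1.2⁻¹ = a at h1 h2 h3 ⊢
    calc a = (g * o a)⁻¹ * (g * v.1.1) * a * ((g * o a)⁻¹ * (g * v.1.1))⁻¹ := by
          rw [← h3.eq]; group
      _ = (g * o a)⁻¹ * (g * v.1.1) * (k a * a₀ * (k a : G)⁻¹) * ((g * o a)⁻¹ * (g * v.1.1))⁻¹ := by
          rw [← h1]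
      _ = _ := by group
  rw [← Nat.card_prod]
  refine Nat.card_le_card_of_injective f fun v w e => ?_
  have e1 : v.1.2 * x * v.1.2⁻¹ = w.1.2 * x * w.1.2⁻¹ := by rw [hf, hf, e]
  have e2 := congrArg (fun y => (y.1 : G)) e
  have e3 := congrArg Prod.snd e
  simp only [f, e1, mul_right_inj, mul_left_inj] at e2 e3
  exact Subtype.ext (Prod.ext e3 e2)

theorem mul_card_reg_le (h : ZMin p x) :
    p * Nat.card {g : G // ¬ p ∣ orderOf g} ≤ Nat.card G := by
  classical
  have := Fintype.ofFinite G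
  set M := centralizer ({x} : Set G) with hM
  let S : Finset G := Finset.univ.filter fun g => p ∣ orderOf g
  let θ : G → ℕ := fun g => (Finset.univ.filter fun s : G => Commute (s * x * s⁻¹) g).card
  -- upper bound
  have hB : ∑ g ∈ S, θ g ≤ Nat.card M * S.card := by
    rw [← Finset.sum_fiberwise S (pPart p) θ, Finset.card_eq_sum_card_fiberwise
      (s := S) (t := Finset.univ) (f := pPart p) (fun _ _ => Finset.mem_univ _), Finset.mul_sum]
    refine Finset.sum_le_sum fun z _ => ?_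
    set O := (pPrimeCore p (centralizer ({z} : Set G))).map (centralizer ({z} : Set G)).subtype
      with hO
    have hT : ∀ g ∈ S.filter fun g => pPart p g = z, z ≠ 1 ∧ ∀ o ∈ O, pPart p (g * o) = z := by
      intro g hg
      simp only [S, Finset.mem_filter, Finset.mem_univ, true_and] at hg
      obtain ⟨h1, rfl⟩ := hg
      refine ⟨pPart_ne_one_iff.2 h1, fun o ho => ?_⟩
      have h2 : pReg p g ∈ centralizer ({pPart p g} : Set G) :=
        mem_centralizer_singleton_iff.2 (commute_pPart_pReg p g).symm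
      conv_lhs => rw [← pPart_mul_pReg p g, mul_assoc]
      exact pPart_mul_eq (mem_centralizer_singleton_iff.1 (mul_mem h2 (map_subtype_le _ ho))).symm
        (orderOf_pPart p g) (not_dvd_mul (Grp.map_pPrimeCore_coprime p _)
          (not_dvd_orderOf_pReg p g) (le_normalizer_map_subtype _ h2) ho)
    refine sum_le_of_coset O _ θ _ (fun g hg o ho => ?_) fun g hg => ?_
    · obtain ⟨h1, h2⟩ := hT g hg
      simp only [S, Finset.mem_filter, Finset.mem_univ, true_and]
      exact ⟨pPart_ne_one_iff.1 ((h2 o ho).symm ▸ h1), h2 o ho⟩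
    · obtain ⟨h1, h2⟩ := hT g hg
      refine le_of_eq_of_le ?_ (card_pairs_le h h1 hO h2)
      rw [Nat.card_eq_fintype_card, Fintype.card_subtype, Finset.card_filter, Fintype.sum_prod_type]
      simp only [θ, Finset.card_filter]
  -- exact value
  have hA : ∑ g ∈ S, θ g = Nat.card G * (S.filter (· ∈ M)).card := by
    simp only [θ, Finset.card_filter]
    rw [Finset.sum_comm, Finset.sum_congr rfl (g := fun _ => ∑ g ∈ S, if g ∈ M then 1 else 0)
      fun s _ => ?_]
    · simp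
    · refine Finset.sum_nbij' (fun g => s⁻¹ * g * s) (fun g => s * g * s⁻¹) (fun g hg => ?_)
        (fun g hg => ?_) (by simp [mul_assoc]) (by simp [mul_assoc]) fun g _ => ?_
      · simpa [S, orderOf_conj' s⁻¹ g, -mul_inv_rev] using (by
          have := orderOf_conj' s⁻¹ g
          rw [inv_inv] at this
          rw [this]; simpa [S] using hg : p ∣ orderOf (s⁻¹ * g * s))
      · simpa [S, orderOf_conj'] using hg
      · congr 1
        rw [hM, mem_centralizer_singleton_iff, Commute, SemiconjBy, eq_iff_iff]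
        constructor <;> intro e
        · calc s⁻¹ * g * s * x = s⁻¹ * (g * (s * x * s⁻¹)) * s := by group
            _ = _ := by rw [← e]; group
        · calc s * x * s⁻¹ * g = s * (x * (s⁻¹ * g * s)) * s⁻¹ := by group
            _ = _ := by rw [← e]; group
  -- inside the centralizer
  let R : Finset G := Finset.univ.filter fun g => g ∈ M ∧ ¬ p ∣ orderOf g
  have hC : p * R.card ≤ Nat.card M := by
    let f : Fin p × R → M := fun v => ⟨x ^ (v.1 : ℕ) * v.2,
      mul_mem (pow_mem (self_mem_cent1 x) _) (Finset.mem_filter.1 v.2.2).2.1⟩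
    have hf : ∀ v, pPart p (f v : G) = x ^ (v.1 : ℕ) := fun v => pPart_mul_eq
      (Commute.pow_left (mem_centralizer_singleton_iff.1 (Finset.mem_filter.1 v.2.2).2.1).symm _)
      (orderOf_eq_pow_of_mem (isPGroup_zpowers h.pow) (pow_mem (mem_zpowers x) _))
      (Finset.mem_filter.1 v.2.2).2.2
    have := Nat.card_le_card_of_injective f fun v w e => by
      have e1 : x ^ (v.1 : ℕ) = x ^ (w.1 : ℕ) := by rw [← hf, ← hf, e]
      have e2 := congrArg Subtype.val e
      simp only [f, e1, mul_right_inj] at e2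
      exact Prod.ext (Fin.ext (pow_injOn_Iio_orderOf (h.ord ▸ v.1.2) (h.ord ▸ w.1.2) e1))
        (Subtype.ext e2)
    simpa using this
  have hD : (S.filter (· ∈ M)).card + R.card = Nat.card M := by
    rw [Nat.card_eq_fintype_card, Fintype.card_subtype,
      ← Finset.card_filter_add_card_filter_not (s := Finset.univ.filter (· ∈ M)) (p ∣ orderOf ·)]
    simp only [S, R, Finset.filter_filter, and_comm]
  have hE : S.card + Nat.card {g : G // ¬ p ∣ orderOf g} = Nat.card G := by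
    rw [Nat.card_eq_fintype_card, Fintype.card_subtype, Finset.card_filter_add_card_filter_not,
      Finset.card_univ, Nat.card_eq_fintype_card]
  rw [hA, ← hE, ← hD] at hB
  rw [← hD] at hC
  rw [← hE]
  have hpos : 0 < (S.filter (· ∈ M)).card + R.card := hD ▸ Nat.card_pos
  generalize (S.filter (· ∈ M)).card = a at *
  generalize R.card = b at *
  generalize S.card = c at *
  generalize Nat.card {g : G // ¬ p ∣ orderOf g} = d at *
  refine Nat.le_of_mul_le_mul_left ?_ hpos
  nlinarith [Nat.mul_le_mul_left (c + d) hC, Nat.mul_le_mul_left p hB]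

end Cfsg.Agent.ZP
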