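import Cfsg.Agent.Fus.Black3
import Cfsg.Agent.FGS.MaxClSylow
import Cfsg.Agent.FT.Blackburn
import Cfsg.Agent.Grp.Extraspecial

/-! `p`-groups of rank two acted on without fixed points on abelian quotients: the two families
of Blackburn's list given by presentations. -/

set_option autoImplicit false

namespace Cfsg.Agent.ZP.Rk2

open Cfsg Subgroup FGS.LcsLie Fus.MC Grp.PChain
open scoped commutatorElement

universe u

variable {T : Type u} [Group T] {p n : ℕ}

/-- `Γ` has no nontrivial fixed point on an abelian quotient of `T`. -/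
def NF (Γ : Set (MulAut T)) : Prop :=
  ∀ Φ : Subgroup T, commutator T ≤ Φ → (∀ α ∈ Γ, ∀ a ∈ Φ, α a ∈ Φ) →
    ∀ a : T, (∀ α ∈ Γ, α a * a⁻¹ ∈ Φ) → a ∈ Φ

theorem NF.pow_eq_one {Γ : Set (MulAut T)} (h : NF Γ) {x : T} (hx : ∀ α ∈ Γ, α x = x)
    (A : Subgroup T) (hA : ∀ α ∈ Γ, ∀ a ∈ A, α a ∈ A) (m : ℕ)
    (hm : ∀ a ∈ A, ∀ b ∈ A, (a * b) ^ m = a ^ m * b ^ m)
    (hd : ∀ d ∈ commutator T, d ∈ A ∧ d ^ m = 1) (hz : ∀ a ∈ A, a ^ m ∈ zpowers x) :
    ∀ a ∈ A, a ^ m = 1 := by
  intro a ha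
  let Φ : Subgroup T :=
    { carrier := {a | a ∈ A ∧ a ^ m = 1}
      one_mem' := ⟨A.one_mem, one_pow _⟩
      mul_mem' := fun {a b} ha hb => ⟨mul_mem ha.1 hb.1, by rw [hm a ha.1 b hb.1, ha.2, hb.2, mul_one]⟩
      inv_mem' := fun {a} ha => ⟨inv_mem ha.1, by rw [inv_pow, ha.2, inv_one]⟩ }
  refine (h Φ hd (fun α hα b hb => ⟨hA α hα b hb.1, by rw [← map_pow, hb.2, map_one]⟩) a
    fun α hα => ⟨mul_mem (hA α hα a ha) (inv_mem ha), ?_⟩).2
  obtain ⟨k, hk⟩ := mem_zpowers_iff.1 (hz a ha)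
  rw [hm _ (hA α hα a ha) _ (inv_mem ha), inv_pow, ← map_pow, ← hk, map_zpow, hx α hα,
    mul_inv_cancel]

/-- The conclusion of Yoshida's theorem fails in `T`. -/
def YF (p : ℕ) (T : Type u) [Group T] : Prop :=
  ∀ W₀ W : Subgroup T, W₀.index = p → (∀ v ∈ W₀, v ^ p ∈ W) → (∀ u ∈ W₀, ∀ v ∈ W₀, ⁅u, v⁆ ∈ W) →
    gam T (p - 1) ≤ W

theorem comm_mem_of_gens {S : Set T} (hS : closure S = ⊤) (N : Subgroup T) [N.Normal] {g : T}
    (h : ∀ s ∈ S, ⁅g, s⁆ ∈ N) (t : T) : ⁅g, t⁆ ∈ N := by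
  have key : ∀ t : T, ⁅g, t⁆ ∈ N ↔ t ∈ (centralizer {(g : T ⧸ N)}).comap (QuotientGroup.mk' N) := by
    intro t
    rw [mem_comap, mem_centralizer_singleton_iff, ← QuotientGroup.eq_one_iff,
      ← QuotientGroup.mk'_apply, map_commutatorElement, commutatorElement_eq_one_iff_mul_comm,
      eq_comm]
    rfl
  rw [key]
  have : closure S ≤ (centralizer {(g : T ⧸ N)}).comap (QuotientGroup.mk' N) :=
    (closure_le _).2 fun s hs => (key s).1 (h s hs)
  exact this (hS ▸ mem_top t)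

theorem comm_symm {N : Subgroup T} {u v : T} (h : ⁅u, v⁆ ∈ N) : ⁅v, u⁆ ∈ N := by
  rw [← commutatorElement_inv]
  exact inv_mem h

theorem commutator_le_of_gens {S : Set T} (hS : closure S = ⊤) (N : Subgroup T) [N.Normal]
    (h : ∀ s ∈ S, ∀ t ∈ S, ⁅s, t⁆ ∈ N) : commutator T ≤ N := by
  exact commutator_le.2 fun a _ b _ =>
    comm_mem_of_gens hS N (fun s hs => comm_symm (comm_mem_of_gens hS N (h s hs) a)) b

theorem mem_center_of_gens {S : Set T} (hS : closure S = ⊤) {g : T} (h : ∀ s ∈ S, g * s = s * g) :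
    g ∈ center T := by
  refine mem_center_iff.2 fun t => ?_
  have := comm_mem_of_gens hS ⊥ (g := g)
    (fun s hs => mem_bot.2 (commutatorElement_eq_one_iff_mul_comm.2 (h s hs))) t
  exact (commutatorElement_eq_one_iff_mul_comm.1 (mem_bot.1 this)).symm

theorem normal_zpowers_of_center {w : T} (hw : w ∈ center T) : (zpowers w).Normal :=
  ⟨fun a ha g => by
    have : a ∈ center T := (zpowers_le.2 hw) ha
    rw [mem_center_iff.1 this g, mul_inv_cancel_right]
    exact ha⟩

theorem exists_eq_of_mem_sup {b c g : T} (h : b * c = c * b) (hg : g ∈ zpowers b ⊔ zpowers c) :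
    ∃ j k : ℤ, g = b ^ j * c ^ k := by
  have hc : Commute b c := h
  rw [← closure_eq (zpowers b), ← closure_eq (zpowers c), ← Subgroup.closure_union] at hg
  induction hg using closure_induction with
  | mem x hx =>
    rcases hx with ⟨j, rfl⟩ | ⟨k, rfl⟩
    · exact ⟨j, 0, by simp⟩
    · exact ⟨0, k, by simp⟩
  | one => exact ⟨0, 0, by simp⟩
  | mul x y _ _ hx hy =>
    obtain ⟨j, k, rfl⟩ := hx
    obtain ⟨j', k', rfl⟩ := hy
    refine ⟨j + j', k + k', ?_⟩
    rw [zpow_add, zpow_add, mul_assoc, ← mul_assoc (c ^ k), ← (hc.zpow_zpow j' k).eq]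
    simp only [mul_assoc]
  | inv x _ hx =>
    obtain ⟨j, k, rfl⟩ := hx
    exact ⟨-j, -k, by rw [mul_inv_rev, ← zpow_neg, ← zpow_neg, (hc.zpow_zpow _ _).eq]⟩

theorem gam_two_le {B N : Subgroup T} (h1 : commutator T ≤ B) (h2 : ∀ b ∈ B, ∀ g : T, ⁅b, g⁆ ∈ N) :
    gam T 2 ≤ N := by
  rw [gam, Subgroup.lowerCentralSeries_succ]
  exact commutator_le.2 fun a ha b _ => h2 a (h1 ha) b

variable [Finite T] [hp : Fact p.Prime]

theorem mem_zpowers_of_rank (hT : IsPGroup p T) (hr : PRankLE p 2 T) {x w a : T}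
    (hx : x ∈ center T) (hxp : orderOf x = p) (hw : w ∈ center T) (hwp : w ^ p = 1)
    (ha : a ∉ center T) (hap : a ^ p = 1) : w ∈ zpowers x := by
  by_contra hn
  have := normal_zpowers_of_center hx
  have hle : zpowers x ⊔ zpowers w ≤ center T := sup_le (zpowers_le.2 hx) (zpowers_le.2 hw)
  have : (zpowers x ⊔ zpowers w).Normal := ⟨fun b hb g => by
    rw [mem_center_iff.1 (hle hb) g, mul_inv_cancel_right]; exact hb⟩
  refine ha (hle (mem_of_rank hT hr ?_ (fun b hb => ?_) ?_ hap))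
  · rw [card_sup_zpowers hp.out hn (hwp ▸ one_mem _), Nat.card_zpowers, hxp, sq]
  · refine pow_eq_one_of_mem_sup_zpowers (fun c hc => pow_eq_one_of_card ?_ hc)
      (fun c _ => mem_center_iff.1 hw c) hwp hb
    rw [Nat.card_zpowers, hxp]
  · exact fun b hb => (mem_center_iff.1 (hle hb) a).symm

theorem card_sup_zpowers_le (A : Subgroup T) [A.Normal] {u : T} (hu : u ^ p = 1) :
    Nat.card (A ⊔ zpowers u : Subgroup T) ≤ Nat.card A * p := by
  by_cases h : u ∈ A
  · rw [sup_eq_left.2 (zpowers_le.2 h)]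
    exact Nat.le_mul_of_pos_right _ hp.out.pos
  · rw [card_sup_zpowers hp.out h (hu ▸ one_mem _)]

/-- The common shape of the two presentations. -/
structure Pres (p n : ℕ) (a b c : T) : Prop where
  card : Nat.card T = p ^ n
  three : 3 ≤ n
  gen : closure ({a, b, c} : Set T) = ⊤
  ha : a ^ p = 1
  hb : b ^ p = 1
  hc : c ^ p ^ (n - 2) = 1
  bc : b * c = c * b
  ab : a⁻¹ * b * a ∈ zpowers b ⊔ zpowers c
  ac : a⁻¹ * c * a ∈ zpowers b ⊔ zpowers c

namespace Pres

variable {a b c : T} (h : Pres p n a b c)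
include h

omit [Finite T] hp in
theorem comm : IsMulCommutative (zpowers b ⊔ zpowers c : Subgroup T) :=
  isMulCommutative_sup_zpowers inferInstance fun g hg => by
    obtain ⟨k, rfl⟩ := mem_zpowers_iff.1 hg
    exact (Commute.zpow_left h.bc k).eq

omit hp in
theorem normal : (zpowers b ⊔ zpowers c : Subgroup T).Normal := by
  rw [← normalizer_eq_top_iff, eq_top_iff, ← h.gen, closure_le]
  have hle : zpowers b ⊔ zpowers c ≤ normalizer ((zpowers b ⊔ zpowers c : Subgroup T) : Set T) :=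
    le_normalizer
  rintro s (rfl | rfl | rfl)
  · rw [SetLike.mem_coe, ← inv_mem_iff]
    refine mem_normalizer_fintype fun g hg => ?_
    obtain ⟨j, k, rfl⟩ := exists_eq_of_mem_sup h.bc hg
    have : s⁻¹ * (b ^ j * c ^ k) * s⁻¹⁻¹ = (s⁻¹ * b * s) ^ j * (s⁻¹ * c * s) ^ k := by
      have h1 := conj_zpow (a := s⁻¹) (b := b) (i := j)
      have h2 := conj_zpow (a := s⁻¹) (b := c) (i := k)
      rw [inv_inv] at h1 h2
      rw [h1, h2]; group
    rw [this]
    exact mul_mem (zpow_mem h.ab j) (zpow_mem h.ac k)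
  · exact hle (mem_sup_left (mem_zpowers _))
  · exact hle (mem_sup_right (mem_zpowers _))

omit [Finite T] hp in
theorem sup_eq_top : zpowers b ⊔ zpowers c ⊔ zpowers a = ⊤ := by
  rw [eq_top_iff, ← h.gen, closure_le]
  rintro s (rfl | rfl | rfl)
  · exact mem_sup_right (mem_zpowers _)
  · exact mem_sup_left (mem_sup_left (mem_zpowers _))
  · exact mem_sup_left (mem_sup_right (mem_zpowers _))

theorem card_le : Nat.card T ≤ Nat.card (zpowers b ⊔ zpowers c : Subgroup T) * p := by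
  have := h.normal
  rw [← card_top, ← h.sup_eq_top]
  exact card_sup_zpowers_le _ h.ha

theorem card_sup_le : Nat.card (zpowers b ⊔ zpowers c : Subgroup T) ≤ orderOf c * p := by
  have hs : Function.Surjective fun q : ZMod (orderOf c) × ZMod p =>
      (⟨b ^ (q.2.cast : ℤ) * c ^ (q.1.cast : ℤ), mul_mem (mem_sup_left (zpow_mem (mem_zpowers b) _))
        (mem_sup_right (zpow_mem (mem_zpowers c) _))⟩ : (zpowers b ⊔ zpowers c : Subgroup T)) := by
    rintro ⟨g, hg⟩
    obtain ⟨j, k, rfl⟩ := exists_eq_of_mem_sup h.bc hg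
    refine ⟨((k : ZMod (orderOf c)), (j : ZMod p)), Subtype.ext ?_⟩
    simp only [ZMod.coe_intCast, zpow_mod_orderOf]
    congr 1
    exact (zpow_eq_zpow_emod' j h.hb).symm
  have : NeZero (orderOf c) := ⟨(orderOf_pos c).ne'⟩
  have := Nat.card_le_card_of_surjective _ hs
  rwa [Nat.card_prod, Nat.card_zmod, Nat.card_zmod] at this

theorem w_ne_one : c ^ p ^ (n - 3) ≠ 1 := fun e => by
  have h1 := Nat.le_of_dvd (pow_pos hp.out.pos _) (orderOf_dvd_of_pow_eq_one e)
  have h2 := h.card_le.trans (Nat.mul_le_mul_right p (h.card_sup_le.trans (Nat.mul_le_mul_right p h1)))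
  have h3 := h.three
  rw [h.card, ← pow_succ, ← pow_succ, Nat.pow_le_pow_iff_right hp.out.one_lt] at h2
  omega

omit [Finite T] hp in
theorem w_pow : (c ^ p ^ (n - 3)) ^ p = 1 := by
  have h3 := h.three
  rw [← pow_mul, ← pow_succ, show n - 3 + 1 = n - 2 by omega, h.hc]

theorem index_le : (zpowers b ⊔ zpowers c : Subgroup T).index ≤ p := by
  have h1 := h.card_le
  rw [← card_mul_index (zpowers b ⊔ zpowers c : Subgroup T)] at h1
  exact Nat.le_of_mul_le_mul_left h1 Nat.card_pos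

end Pres

/-- The first family. -/
structure Two (p n : ℕ) (a b c : T) : Prop extends Pres p n a b c where
  ac' : a * c = c * a
  ab' : a⁻¹ * b * a = b * c ^ p ^ (n - 3)

namespace Two

variable {a b c : T} (h : Two p n a b c)
include h

omit [Finite T] hp in
theorem w_center : c ^ p ^ (n - 3) ∈ center T := by
  refine pow_mem (mem_center_of_gens h.gen ?_) _
  rintro s (rfl | rfl | rfl)
  exacts [h.ac'.symm, h.bc.symm, rfl]

omit [Finite T] hp in
theorem commutator_le : commutator T ≤ zpowers (c ^ p ^ (n - 3)) := by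
  have := normal_zpowers_of_center h.w_center
  have hba : ⁅b, a⁆ ∈ zpowers (c ^ p ^ (n - 3)) := by
    have : ⁅b, a⁆ = a * (a⁻¹ * b * a * b⁻¹) * a⁻¹ := by rw [commutatorElement_def]; group
    rw [this, h.ab', mem_center_iff.1 h.w_center b, mul_inv_cancel_right]
    exact Normal.conj_mem inferInstance _ (mem_zpowers _) _
  have e : ∀ u v : T, u * v = v * u → ⁅u, v⁆ ∈ zpowers (c ^ p ^ (n - 3)) := fun u v e =>
    commutatorElement_eq_one_iff_mul_comm.2 e ▸ one_mem _
  refine commutator_le_of_gens h.gen _ ?_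
  rintro s (rfl | rfl | rfl) t (rfl | rfl | rfl)
  exacts [e _ _ rfl, comm_symm hba, e _ _ h.ac', hba, e _ _ rfl,
    e _ _ h.bc, e _ _ h.ac'.symm, e _ _ h.bc.symm, e _ _ rfl]

omit [Finite T] hp in
theorem gam_two : gam T 2 = ⊥ :=
  le_bot_iff.1 (gam_two_le h.commutator_le fun d hd g => mem_bot.2
    (commutatorElement_eq_one_iff_mul_comm.2 (mem_center_iff.1 (zpowers_le.2 h.w_center hd) g).symm))

theorem false (hp2 : p ≠ 2) (hr : PRankLE p 2 T) (h4 : 4 ≤ n) {Γ : Set (MulAut T)} (hΓ : NF Γ)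
    {x : T} (hx : ∀ α ∈ Γ, α x = x) (hxc : x ∈ center T) (hxp : orderOf x = p) : False := by
  have hT : IsPGroup p T := IsPGroup.of_card h.card
  have hw : c ^ p ^ (n - 3) ∈ zpowers x := by
    refine mem_zpowers_of_rank hT hr hxc hxp h.w_center h.toPres.w_pow (fun ha => ?_) h.ha
    have := h.ab'
    rw [mul_assoc, mem_center_iff.1 ha b, inv_mul_cancel_left, left_eq_mul] at this
    exact h.toPres.w_ne_one this
  have hdv : p ∣ p ^ (n - 3) := dvd_pow_self p (by omega)
  have hd : ∀ d ∈ commutator T, ∀ k, p ∣ k → d ^ k = 1 := by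
    rintro d hd _ ⟨k, rfl⟩
    obtain ⟨j, rfl⟩ := mem_zpowers_iff.1 (h.commutator_le hd)
    rw [pow_mul, ← zpow_natCast _ p, ← zpow_mul, mul_comm, zpow_mul, zpow_natCast, h.toPres.w_pow,
      one_zpow, one_pow]
  have hm : ∀ u v : T, (u * v) ^ p ^ (n - 3) = u ^ p ^ (n - 3) * v ^ p ^ (n - 3) := by
    intro u v
    have hc := commutator_mem_commutator (mem_top v) (mem_top u)
    have hz := mem_center_iff.1 (zpowers_le.2 h.w_center (h.commutator_le hc))
    rw [Grp.ES.mul_pow_of_comm_central (hz u) (hz v), hd _ hc _ ?_, mul_one]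
    have ho : Odd (p ^ (n - 3)) := (hp.out.odd_of_ne_two hp2).pow
    rw [Nat.choose_two_right, Nat.mul_div_assoc _ (Nat.Odd.sub_odd ho odd_one).two_dvd]
    exact hdv.mul_right _
  let B : Subgroup T :=
    { carrier := {g | g ^ p ^ (n - 3) ∈ zpowers x}
      one_mem' := by simp
      mul_mem' := fun {u v} hu hv => by
        rw [Set.mem_ofPred_eq, hm]; exact mul_mem hu hv
      inv_mem' := fun {u} hu => by
        rw [Set.mem_ofPred_eq, inv_pow]; exact inv_mem hu }
  have hB : closure ({a, b, c} : Set T) ≤ B := by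
    rw [closure_le]
    obtain ⟨k, hk⟩ := hdv
    rintro s (rfl | rfl | rfl)
    · change _ ∈ zpowers x
      rw [hk, pow_mul, h.ha, one_pow]; exact one_mem _
    · change _ ∈ zpowers x
      rw [hk, pow_mul, h.hb, one_pow]; exact one_mem _
    · exact hw
  exact h.toPres.w_ne_one (hΓ.pow_eq_one hx ⊤ (fun _ _ _ _ => mem_top _) _ (fun u _ v _ => hm u v)
    (fun d hd' => ⟨mem_top _, hd d hd' _ hdv⟩) (fun g _ => hB (h.gen ▸ mem_top g)) c (mem_top _))

end Two

/-- The second family. -/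
structure Three (p n s : ℕ) (a b c : T) : Prop extends Pres p n a b c where
  four : 4 ≤ n
  hs : ¬ p ∣ s
  ab' : a⁻¹ * b * a = b * c ^ (s * p ^ (n - 3))
  ac' : a⁻¹ * c * a = b * c

namespace Three

variable {s : ℕ} {a b c : T} (h : Three p n s a b c)
include h

omit [Finite T] hp in
theorem w_eq : c ^ p ^ (n - 3) = (c ^ p ^ (n - 4)) ^ p := by
  have := h.four
  rw [← pow_mul, ← pow_succ, show n - 4 + 1 = n - 3 by omega]

omit [Finite T] hp in
theorem w_center : c ^ p ^ (n - 3) ∈ center T := by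
  rw [h.w_eq, ← pow_mul, mul_comm, pow_mul]
  refine pow_mem (mem_center_of_gens h.gen ?_) _
  rintro s (rfl | rfl | rfl)
  · have h1 := conj_pow (a := s⁻¹) (b := c) (i := p)
    rw [inv_inv, h.ac', (show Commute b c from h.bc).mul_pow, h.hb, one_mul] at h1
    rw [mul_assoc, eq_inv_mul_iff_mul_eq] at h1
    exact h1.symm
  · exact (Commute.pow_right h.bc p).eq.symm
  · exact (Commute.self_pow _ _).eq.symm

omit [Finite T] hp in
theorem ba : ⁅b, a⁆ = (c ^ p ^ (n - 3)) ^ s := by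
  have h1 := mem_center_iff.1 (pow_mem h.w_center s)
  have : ⁅b, a⁆ = a * (a⁻¹ * b * a * b⁻¹) * a⁻¹ := by rw [commutatorElement_def]; group
  rw [this, h.ab', mul_comm s, pow_mul, h1 b, mul_inv_cancel_right, h1 a, mul_inv_cancel_right]

omit [Finite T] hp in
theorem b_comm (g : T) : ⁅b, g⁆ ∈ zpowers (c ^ p ^ (n - 3)) := by
  have := normal_zpowers_of_center h.w_center
  refine comm_mem_of_gens h.gen _ ?_ g
  rintro t (rfl | rfl | rfl)
  · rw [h.ba]; exact pow_mem (mem_zpowers _) _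
  · simp
  · rw [commutatorElement_eq_one_iff_mul_comm.2 h.bc]; exact one_mem _

omit [Finite T] hp in
theorem ca : ⁅c, a⁆ = a * b * a⁻¹ := by
  have : ⁅c, a⁆ = a * (a⁻¹ * c * a * c⁻¹) * a⁻¹ := by rw [commutatorElement_def]; group
  rw [this, h.ac', mul_inv_cancel_right]

omit [Finite T] hp in
theorem commutator_le : commutator T ≤ zpowers (c ^ p ^ (n - 3)) ⊔ zpowers b := by
  have := normal_zpowers_of_center h.w_center
  have := normal_sup_zpowers h.b_comm
  have hb : ∀ g, ⁅b, g⁆ ∈ zpowers (c ^ p ^ (n - 3)) ⊔ zpowers b := fun g =>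
    mem_sup_left (h.b_comm g)
  have hca : ⁅c, a⁆ ∈ zpowers (c ^ p ^ (n - 3)) ⊔ zpowers b :=
    h.ca ▸ this.conj_mem _ (mem_sup_right (mem_zpowers _)) _
  refine commutator_le_of_gens h.gen _ ?_
  rintro s (rfl | rfl | rfl) t (rfl | rfl | rfl)
  exacts [by simp, comm_symm (hb _), comm_symm hca, hb _, hb _, hb _, hca, comm_symm (hb _),
    by simp]

omit [Finite T] hp in
theorem gam_two : gam T 2 ≤ zpowers (c ^ p ^ (n - 3)) := by
  have := normal_zpowers_of_center h.w_center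
  exact gam_two_le h.commutator_le fun d hd g => commutator_mem_of_mem_sup_zpowers h.b_comm hd g

theorem yf (hp2 : p ≠ 2) (h5 : 5 ≤ n) : YF p T := fun W₀ W hi hW _ => by
  have hT : IsPGroup p T := IsPGroup.of_card h.card
  have h2 := hp.out.two_le
  refine (gam_anti (by omega)).trans (h.gam_two.trans (zpowers_le.2 ?_))
  rw [h.w_eq]
  refine hW _ ?_
  rw [show n - 4 = n - 5 + 1 by omega, pow_succ, pow_mul]
  exact Grp.PFrattini.pow_mem_of_isCoatom hT (FGS.isCoatom_of_prime_index (hi ▸ hp.out)) _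

theorem ba_ne_one : ⁅b, a⁆ ≠ 1 := fun e => by
  rw [h.ba] at e
  have h1 := Nat.dvd_gcd (orderOf_dvd_of_pow_eq_one h.toPres.w_pow) (orderOf_dvd_of_pow_eq_one e)
  rw [(hp.out.coprime_iff_not_dvd.2 h.hs).gcd_eq_one, Nat.dvd_one, orderOf_eq_one_iff] at h1
  exact h.toPres.w_ne_one h1

theorem centralizer_eq : centralizer (commutator T : Set T) = zpowers b ⊔ zpowers c := by
  have hT : IsPGroup p T := IsPGroup.of_card h.card
  have hle : commutator T ≤ zpowers b ⊔ zpowers c := h.commutator_le.trans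
    (sup_le (zpowers_le.2 (mem_sup_right (pow_mem (mem_zpowers _) _))) le_sup_left)
  have h1 : zpowers b ⊔ zpowers c ≤ centralizer (commutator T : Set T) := fun g hg d hd =>
    (commute_of_mem h.toPres.comm (hle hd) hg).eq
  have hb : b ∈ commutator T := by
    have := (inferInstance : (commutator T).Normal).conj_mem _
      (commutator_mem_commutator (mem_top c) (mem_top a)) a⁻¹
    rw [h.ca] at this
    simpa [mul_assoc] using this
  have ha : a ∉ centralizer (commutator T : Set T) := fun e =>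
    h.ba_ne_one (commutatorElement_eq_one_iff_mul_comm.2 (e b hb))
  refine le_antisymm (fun g hg => by_contra fun hn => ha ?_) h1
  obtain ⟨k, hk⟩ := hT.index (zpowers b ⊔ zpowers c)
  have hi := h.toPres.index_le
  have hk1 : k = 1 := by
    rw [hk] at hi
    have : k ≤ 1 := (Nat.pow_le_pow_iff_right hp.out.one_lt).1 (by rwa [pow_one])
    rcases Nat.le_one_iff_eq_zero_or_eq_one.1 this with rfl | rfl
    · rw [pow_zero, index_eq_one] at hk
      exact absurd (hk ▸ mem_top g) hn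
    · rfl
  rw [hk1, pow_one] at hk
  have := FGS.sup_zpowers_eq_top_of_prime_index (hk ▸ hp.out) hn
  exact (this ▸ sup_le h1 (zpowers_le.2 hg) :) (mem_top a)

theorem false (hr : PRankLE p 2 T) {Γ : Set (MulAut T)} (hΓ : NF Γ)
    {x : T} (hx : ∀ α ∈ Γ, α x = x) (hxc : x ∈ center T) (hxp : orderOf x = p) : False := by
  have hT : IsPGroup p T := IsPGroup.of_card h.card
  have h4 := h.four
  have hw : c ^ p ^ (n - 3) ∈ zpowers x :=
    mem_zpowers_of_rank hT hr hxc hxp h.w_center h.toPres.w_pow (fun ha => h.ba_ne_one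
      (commutatorElement_eq_one_iff_mul_comm.2 (mem_center_iff.1 ha b))) h.ha
  obtain ⟨k, hk⟩ : p ∣ p ^ (n - 3) := dvd_pow_self p (by omega)
  have := normal_zpowers_of_center h.w_center
  refine h.toPres.w_ne_one (hΓ.pow_eq_one hx (zpowers b ⊔ zpowers c) (fun α _ g hg => ?_) _
    (fun u hu v hv => (commute_of_mem h.toPres.comm hu hv).mul_pow _) (fun d hd => ⟨?_, ?_⟩)
    (fun g hg => ?_) c (mem_sup_right (mem_zpowers _)))
  · rw [← h.centralizer_eq] at hg ⊢
    exact (characteristic_iff_le_comap.1 inferInstance α) hg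
  · exact h.commutator_le.trans
      (sup_le (zpowers_le.2 (mem_sup_right (pow_mem (mem_zpowers _) _))) le_sup_left) hd
  · rw [hk, pow_mul, pow_eq_one_of_mem_sup_zpowers (n := p) (fun g hg => ?_)
      (fun g hg => (mem_center_iff.1 (zpowers_le.2 h.w_center hg) b).symm) h.hb
      (h.commutator_le hd), one_pow]
    obtain ⟨j, rfl⟩ := mem_zpowers_iff.1 hg
    rw [← zpow_natCast _ p, ← zpow_mul, mul_comm, zpow_mul, zpow_natCast, h.toPres.w_pow, one_zpow]
  · obtain ⟨i, j, rfl⟩ := exists_eq_of_mem_sup h.bc hg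
    rw [((show Commute b c from h.bc).zpow_zpow i j).mul_pow, ← zpow_natCast (b ^ i),
      ← zpow_natCast (c ^ j), ← zpow_mul, ← zpow_mul, mul_comm i, mul_comm j, zpow_mul, zpow_mul,
      zpow_natCast, zpow_natCast]
    refine mul_mem (zpow_mem ?_ _) (zpow_mem hw _)
    rw [hk, pow_mul, h.hb, one_pow]; exact one_mem _

end Three

end Cfsg.Agent.ZP.Rk2
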